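import Mathlib

/-!
Composition length of a finite group through subnormal chains.
-/

set_option autoImplicit false
set_option linter.style.haveILetI false

open scoped Classical
open ArithmeticFunction
open scoped ArithmeticFunction.Omega

namespace Cfsg.Agent.CompLen

universe u v

variable {G : Type u} [Group G]

/-- A chain with each term normal in the next, repetitions allowed, ending at the whole group. -/
def IsChain (G : Type u) [Group G] (l : ℕ) (H : ℕ → Subgroup G) : Prop :=
  H l = ⊤ ∧ ∀ i < l, H i ≤ H (i + 1) ∧ ((H i).subgroupOf (H (i + 1))).Normal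

/-- The number of proper steps of a chain. -/
noncomputable def steps (l : ℕ) (H : ℕ → Subgroup G) : ℕ :=
  ((Finset.range l).filter fun i => H i ≠ H (i + 1)).card

theorem steps_succ (l : ℕ) (H : ℕ → Subgroup G) :
    steps (l + 1) H = steps l H + (if H l ≠ H (l + 1) then 1 else 0) := by
  simp only [steps, Finset.card_filter, Finset.sum_range_succ]

theorem steps_add (l k : ℕ) (H : ℕ → Subgroup G) :
    steps (l + k) H = steps l H + steps k (fun i => H (l + i)) := by
  induction k with
  | zero => simp [steps]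
  | succ k ih => rw [← Nat.add_assoc, steps_succ, ih, steps_succ]; ring_nf

theorem cardFactors_le_of_dvd {a b : ℕ} (hb : b ≠ 0) (h : a ∣ b) : Ω a ≤ Ω b := by
  obtain ⟨c, rfl⟩ := h
  obtain ⟨ha, hc⟩ := mul_ne_zero_iff.mp hb
  rw [cardFactors_mul ha hc]; omega

theorem cardFactors_lt_of_dvd {a b : ℕ} (hb : b ≠ 0) (h : a ∣ b) (hne : a ≠ b) : Ω a < Ω b := by
  obtain ⟨c, rfl⟩ := h
  obtain ⟨ha, hc⟩ := mul_ne_zero_iff.mp hb
  have hc1 : c ≠ 1 := by rintro rfl; exact hne (mul_one a).symm
  rw [cardFactors_mul ha hc]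
  have : 0 < Ω c := cardFactors_pos_iff_one_lt.mpr (by omega)
  omega

theorem two_pow_cardFactors_le {n : ℕ} (hn : n ≠ 0) : 2 ^ Ω n ≤ n := by
  conv_rhs => rw [← Nat.prod_primeFactorsList hn]
  rw [cardFactors_apply]
  exact List.pow_card_le_prod _ 2 fun p hp => (Nat.prime_of_mem_primeFactorsList hp).two_le

theorem cardFactors_mono_card [Finite G] {A B : Subgroup G} (h : A ≤ B) :
    Ω (Nat.card A) + (if A ≠ B then 1 else 0) ≤ Ω (Nat.card B) := by
  by_cases hAB : A = B
  · simp [hAB]
  · rw [if_pos hAB]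
    refine cardFactors_lt_of_dvd Nat.card_pos.ne' (Subgroup.card_dvd_of_le h) fun hc => hAB ?_
    exact Subgroup.eq_of_le_of_card_ge h hc.ge

theorem steps_le_cardFactors [Finite G] {l : ℕ} {H : ℕ → Subgroup G} (h : IsChain G l H) :
    steps l H ≤ Ω (Nat.card G) := by
  have key : ∀ k ≤ l, steps k H ≤ Ω (Nat.card (H k)) := by
    intro k
    induction k with
    | zero => simp [steps]
    | succ k ih =>
      intro hk
      rw [steps_succ]
      have := cardFactors_mono_card (h.2 k hk).1
      have := ih (by omega)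
      omega
  have := key l le_rfl
  rwa [h.1, Subgroup.card_top] at this

/-- The composition length. -/
noncomputable def cl (G : Type u) [Group G] : ℕ :=
  sSup {n | ∃ l H, IsChain G l H ∧ steps l H = n}

theorem cl_le {b : ℕ} (h : ∀ l H, IsChain G l H → steps l H ≤ b) : cl G ≤ b := by
  refine csSup_le ⟨0, 0, fun _ => ⊤, ⟨rfl, by simp⟩, by simp [steps]⟩ ?_
  rintro n ⟨l, H, hH, rfl⟩
  exact h l H hH

theorem steps_le_cl [Finite G] {l : ℕ} {H : ℕ → Subgroup G} (h : IsChain G l H) :
    steps l H ≤ cl G :=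
  le_csSup ⟨Ω (Nat.card G), by rintro n ⟨l, H, hH, rfl⟩; exact steps_le_cardFactors hH⟩
    ⟨l, H, h, rfl⟩

theorem cl_le_cardFactors [Finite G] : cl G ≤ Ω (Nat.card G) :=
  cl_le fun _ _ h => steps_le_cardFactors h

theorem two_pow_cl_le [Finite G] : 2 ^ cl G ≤ Nat.card G :=
  (Nat.pow_le_pow_right (by norm_num) cl_le_cardFactors).trans
    (two_pow_cardFactors_le Nat.card_pos.ne')

theorem exists_max_chain [Finite G] : ∃ l H, IsChain G l H ∧ steps l H = cl G :=
  Nat.sSup_mem (s := {n | ∃ l H, IsChain G l H ∧ steps l H = n}) ⟨0, 0, fun _ => ⊤, ⟨rfl, by simp⟩, by simp [steps]⟩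
    ⟨Ω (Nat.card G), by rintro n ⟨l, H, hH, rfl⟩; exact steps_le_cardFactors hH⟩

theorem step_normal_comap {G' : Type v} [Group G'] (f : G →* G') {A B : Subgroup G'}
    (h : (A.subgroupOf B).Normal) :
    ((A.comap f).subgroupOf (B.comap f)).Normal := by
  constructor
  intro a ha b
  simp only [Subgroup.mem_subgroupOf, Subgroup.mem_comap] at ha ⊢
  simpa [Subgroup.mem_subgroupOf] using
    Subgroup.mem_subgroupOf.mp (h.conj_mem (⟨f a, a.2⟩ : B) ha ⟨f b, b.2⟩)

theorem step_normal_map {G' : Type v} [Group G'] (f : G →* G') {A B : Subgroup G}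
    (h : (A.subgroupOf B).Normal) (hAB : A ≤ B) :
    ((A.map f).subgroupOf (B.map f)).Normal := by
  constructor
  rintro ⟨_, a', ha', rfl⟩ ha ⟨_, b, hb, rfl⟩
  obtain ⟨a, haA, he⟩ := (show f a' ∈ A.map f from ha)
  refine ⟨b * a * b⁻¹, ?_, by simp [he]⟩
  exact Subgroup.mem_subgroupOf.mp (h.conj_mem (⟨a, hAB haA⟩ : B) haA ⟨b, hb⟩)

/-- Subadditivity over a homomorphism. -/
theorem cl_le_ker_add_range {G' : Type v} [Group G'] [Finite G] (f : G →* G') :
    cl G ≤ cl f.ker + cl f.range := by
  refine cl_le fun l H hH => ?_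
  set A : ℕ → Subgroup f.ker := fun i => (H i).comap f.ker.subtype with hA
  set B : ℕ → Subgroup f.range := fun i => (H i).map f.rangeRestrict with hB
  have hcA : IsChain f.ker l A := ⟨by simp [hA, hH.1], fun i hi =>
    ⟨Subgroup.comap_mono (hH.2 i hi).1, step_normal_comap _ (hH.2 i hi).2⟩⟩
  have hcB : IsChain f.range l B := ⟨by
    simp only [hB, hH.1]
    exact Subgroup.map_top_of_surjective _ f.rangeRestrict_surjective, fun i hi =>
    ⟨Subgroup.map_mono (hH.2 i hi).1, step_normal_map _ (hH.2 i hi).2 (hH.2 i hi).1⟩⟩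
  haveI : Finite f.range := Finite.of_surjective _ f.rangeRestrict_surjective
  refine le_trans ?_ (Nat.add_le_add (steps_le_cl hcA) (steps_le_cl hcB))
  refine le_trans (Finset.card_le_card ?_) (Finset.card_union_le _ _)
  intro i hi
  simp only [Finset.mem_filter, Finset.mem_range, Finset.mem_union] at hi ⊢
  by_contra hc
  push Not at hc
  refine hi.2 (le_antisymm (hH.2 i hi.1).1 fun x hx => ?_)
  obtain ⟨y, hy, hxy⟩ : f.rangeRestrict x ∈ B i := (hc.2 hi.1).ge ⟨x, hx, rfl⟩
  have hk : y⁻¹ * x ∈ f.ker := by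
    have h' := congrArg Subtype.val hxy
    simp only [MonoidHom.coe_rangeRestrict] at h'
    simp [MonoidHom.mem_ker, h']
  have : (⟨y⁻¹ * x, hk⟩ : f.ker) ∈ A i :=
    (hc.1 hi.1).ge (show y⁻¹ * x ∈ H (i + 1) from mul_mem (inv_mem ((hH.2 i hi.1).1 hy)) hx)
  simpa using mul_mem hy (show y⁻¹ * x ∈ H i from this)

/-- Superadditivity over a surjective homomorphism. -/
theorem ker_add_cl_le {G' : Type v} [Group G'] [Finite G] (f : G →* G')
    (hf : Function.Surjective f) : cl f.ker + cl G' ≤ cl G := by
  haveI : Finite G' := Finite.of_surjective _ hf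
  obtain ⟨l, A, hA, hAs⟩ := exists_max_chain (G := f.ker)
  obtain ⟨k, B, hB, hBs⟩ := exists_max_chain (G := G')
  set C : ℕ → Subgroup G := fun i =>
    if i ≤ l then (A i).map f.ker.subtype else (B (i - l - 1)).comap f with hC
  have h1 : ∀ i ≤ l, C i = (A i).map f.ker.subtype := fun i hi => if_pos hi
  have h2 : ∀ i, C (l + (1 + i)) = (B i).comap f := fun i => by
    simp only [hC]
    rw [if_neg (by omega), show l + (1 + i) - l - 1 = i by omega]
  have htop : C l = f.ker := by rw [h1 l le_rfl, hA.1, ← MonoidHom.range_eq_map, Subgroup.range_subtype]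
  have hchain : IsChain G (l + (1 + k)) C := by
    refine ⟨by rw [h2, hB.1, Subgroup.comap_top], fun i hi => ?_⟩
    rcases lt_trichotomy i l with h | rfl | h
    · rw [h1 i h.le, h1 (i + 1) h]
      exact ⟨Subgroup.map_mono (hA.2 i h).1, step_normal_map _ (hA.2 i h).2 (hA.2 i h).1⟩
    · rw [htop, h2 0]
      exact ⟨f.ker_le_comap _, inferInstance⟩
    · obtain ⟨j, rfl⟩ : ∃ j, i = l + (1 + j) := ⟨i - l - 1, by omega⟩
      rw [Nat.add_assoc, show 1 + j + 1 = 1 + (j + 1) by omega, h2, h2]
      exact ⟨Subgroup.comap_mono (hB.2 j (by omega)).1,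
        step_normal_comap _ (hB.2 j (by omega)).2⟩
  refine le_trans ?_ (steps_le_cl hchain)
  rw [steps_add, steps_add, ← hAs, ← hBs]
  have e1 : steps l A = steps l C := by
    refine congrArg Finset.card (Finset.filter_congr fun i hi => ?_)
    rw [Finset.mem_range] at hi
    rw [h1 i hi.le, h1 (i + 1) hi]
    exact not_congr (Subgroup.map_injective f.ker.subtype_injective).eq_iff.symm
  have e2 : steps k B = steps k (fun i => C (l + (1 + i))) := by
    refine congrArg Finset.card (Finset.filter_congr fun i _ => ?_)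
    simp only [h2]
    exact not_congr (Subgroup.comap_injective hf).eq_iff.symm
  omega

theorem cl_congr {G' : Type v} [Group G'] [Finite G] (e : G ≃* G') : cl G' ≤ cl G := by
  have h := ker_add_cl_le e.toMonoidHom e.surjective
  omega

theorem cl_eq_of_equiv {G' : Type v} [Group G'] [Finite G] (e : G ≃* G') : cl G = cl G' := by
  haveI : Finite G' := Finite.of_equiv _ e.toEquiv
  exact le_antisymm (cl_congr e.symm) (cl_congr e)

theorem cl_simple_le [Finite G] [IsSimpleGroup G] : cl G ≤ 1 := by
  refine cl_le fun l H hH => ?_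
  have key : ∀ k ≤ l, (H k = ⊥ → steps k H = 0) ∧ (H k = ⊤ → steps k H ≤ 1) := by
    intro k
    induction k with
    | zero => simp [steps]
    | succ k ih =>
      intro hk
      obtain ⟨i1, i2⟩ := ih (by omega)
      refine ⟨fun h => ?_, fun h => ?_⟩
      · have : H k = ⊥ := le_bot_iff.mp (h ▸ (hH.2 k hk).1)
        rw [steps_succ, if_neg (by simp [h, this]), i1 this]
      · rw [steps_succ]
        have hn : (H k).Normal := by
          constructor
          intro a ha b
          have := (hH.2 k hk).2.conj_mem ⟨a, h ▸ trivial⟩ ha ⟨b, h ▸ trivial⟩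
          simpa [Subgroup.mem_subgroupOf] using this
        rcases hn.eq_bot_or_eq_top with h' | h'
        · rw [i1 h']; split_ifs <;> omega
        · rw [if_neg (by simp [h, h'])]; exact i2 h'
  exact (key l le_rfl).2 hH.1

theorem cl_pi_le {T : Type v} [Group T] [Finite T] [IsSimpleGroup T] :
    ∀ m : ℕ, cl (Fin m → T) ≤ m := by
  intro m
  induction m with
  | zero => exact cl_le_cardFactors.trans (by simp)
  | succ m ih =>
    have h := cl_le_ker_add_range (Pi.evalMonoidHom (fun _ : Fin (m + 1) => T) 0)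
    let r : (Pi.evalMonoidHom (fun _ : Fin (m + 1) => T) 0).ker ≃* (Fin m → T) :=
      { toFun := fun x i => x.1 i.succ
        invFun := fun y => ⟨Fin.cons 1 y, by simp [MonoidHom.mem_ker]⟩
        left_inv := fun x => Subtype.ext (funext fun i => by
          refine Fin.cases ?_ (fun i => ?_) i
          · simpa using (MonoidHom.mem_ker.mp x.2).symm
          · simp)
        right_inv := fun y => funext fun i => by simp
        map_mul' := fun x y => rfl }
    rw [cl_eq_of_equiv r, MonoidHom.range_eq_top.mpr (fun t => ⟨fun _ => t, rfl⟩),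
      cl_eq_of_equiv Subgroup.topEquiv] at h
    have := cl_simple_le (G := T)
    omega

/-- Independent coordinates give a lower bound. -/
theorem le_cl_of_coords {ι : Type*} {T : Type v} [Group T] [Fintype ι] [Finite G]
    (f : G →* (ι → T)) (J : Finset ι)
    (h : ∀ j ∈ J, ∃ x : G, f x j ≠ 1 ∧ ∀ i ∈ J, i ≠ j → f x i = 1) : J.card ≤ cl G := by
  induction J using Finset.induction generalizing G with
  | empty => simp
  | @insert j J hj ih =>
    rw [Finset.card_insert_of_notMem hj]
    set q := (Pi.evalMonoidHom (fun _ : ι => T) j).comp f with hq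
    obtain ⟨x, hx, -⟩ := h j (Finset.mem_insert_self _ _)
    have h1 := ker_add_cl_le q.rangeRestrict q.rangeRestrict_surjective
    rw [MonoidHom.ker_rangeRestrict] at h1
    have h2 : 1 ≤ cl q.range := by
      haveI : Finite q.range := Finite.of_surjective _ q.rangeRestrict_surjective
      have hne : (⊥ : Subgroup q.range) ≠ ⊤ := by
        intro he
        have h0 : q.rangeRestrict x ∈ (⊥ : Subgroup q.range) := he ▸ trivial
        exact hx (congrArg Subtype.val (Subgroup.mem_bot.mp h0))
      have hc : IsChain q.range 1 (fun i => if i = 0 then ⊥ else ⊤) :=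
        ⟨by simp, fun i hi => by
          obtain rfl : i = 0 := by omega
          simp only [if_true]
          exact ⟨bot_le, by rw [Subgroup.bot_subgroupOf]; infer_instance⟩⟩
      refine le_trans ?_ (steps_le_cl hc)
      rw [steps_succ]
      simp [steps, hne]
    have h3 := ih (f.comp q.ker.subtype) fun i hi => by
      obtain ⟨y, hy, hy'⟩ := h i (Finset.mem_insert_of_mem hi)
      refine ⟨⟨y, ?_⟩, hy, fun k hk hki => hy' k (Finset.mem_insert_of_mem hk) hki⟩
      exact hy' j (Finset.mem_insert_self _ _) (fun e => hj (e ▸ hi))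
    omega

end Cfsg.Agent.CompLen
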