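import Cfsg.Agent.CompLen.Basic

/-!
Subgroups of a power of a non-abelian simple group seen from a primitive action.
-/

set_option autoImplicit false
set_option linter.style.haveILetI false

open scoped Classical commutatorElement

namespace Cfsg.Agent.CompLen

universe v

variable {T : Type v} [Group T] {m : ℕ}

/-- The number of nontrivial coordinates. -/
noncomputable def wt (x : Fin m → T) : ℕ := (Finset.univ.filter fun i => x i ≠ 1).card

theorem exists_not_commute [IsSimpleGroup T] (hna : ¬ IsMulCommutative T) {a : T} (ha : a ≠ 1) :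
    ∃ b : T, a * b ≠ b * a := by
  by_contra hc
  push Not at hc
  have hz : a ∈ Subgroup.center T := Subgroup.mem_center_iff.mpr fun b => (hc b).symm
  rcases (inferInstance : (Subgroup.center T).Normal).eq_bot_or_eq_top with h | h
  · exact ha (by rw [h] at hz; exact hz)
  · refine hna ⟨⟨fun x y => ?_⟩⟩
    have : y ∈ Subgroup.center T := h ▸ trivial
    exact Subgroup.mem_center_iff.mp this x

theorem mulSingle_mem_of_coord [IsSimpleGroup T] (hna : ¬ IsMulCommutative T)
    {M : Subgroup (Fin m → T)} [hM : M.Normal] {x : Fin m → T} (hx : x ∈ M) {i : Fin m}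
    (hi : x i ≠ 1) (t : T) : Pi.mulSingle i t ∈ M := by
  set P : Subgroup T := M.comap (MonoidHom.mulSingle (fun _ : Fin m => T) i) with hP
  haveI : P.Normal := inferInstance
  obtain ⟨b, hb⟩ := exists_not_commute hna hi
  have hmem : ⁅x i, b⁆ ∈ P := by
    show Pi.mulSingle i ⁅x i, b⁆ ∈ M
    have h1 : ⁅x, Pi.mulSingle (M := fun _ : Fin m => T) i b⁆ ∈ M := by
      rw [commutatorElement_def, mul_assoc, mul_assoc]
      exact mul_mem hx (by simpa [mul_assoc] using hM.conj_mem _ (inv_mem hx) (Pi.mulSingle i b))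
    convert h1 using 1
    funext k
    rcases eq_or_ne k i with rfl | hk
    · simp [commutatorElement_def]
    · simp [commutatorElement_def, hk]
  rcases (inferInstance : P.Normal).eq_bot_or_eq_top with h | h
  · rw [h, Subgroup.mem_bot, commutatorElement_eq_one_iff_mul_comm] at hmem
    exact absurd hmem hb
  · exact (h ▸ trivial : t ∈ P)

/-- The vectors supported inside a set of coordinates. -/
def coordSub (A : Finset (Fin m)) : Subgroup (Fin m → T) where
  carrier := {x | ∀ i, i ∉ A → x i = 1}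
  one_mem' := fun _ _ => rfl
  mul_mem' := fun hx hy i hi => by simp [hx i hi, hy i hi]
  inv_mem' := fun hx i hi => by simp [hx i hi]

theorem mem_coordSub {A : Finset (Fin m)} {x : Fin m → T} :
    x ∈ coordSub A ↔ ∀ i, i ∉ A → x i = 1 := Iff.rfl

instance coordSub_normal (A : Finset (Fin m)) : (coordSub (T := T) A).Normal :=
  ⟨fun x hx g i hi => by simp [hx i hi]⟩

theorem card_coordSub [Finite T] (A : Finset (Fin m)) :
    Nat.card (coordSub (T := T) A) = Nat.card T ^ A.card := by
  rw [Nat.card_congr (show coordSub (T := T) A ≃ (A → T) from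
    { toFun := fun x i => x.1 i
      invFun := fun y => ⟨fun i : Fin m => if h : i ∈ A then y ⟨i, h⟩ else 1,
        fun i hi => dif_neg hi⟩
      left_inv := fun x => Subtype.ext (funext fun i => by
        by_cases h : i ∈ A
        · simp [h]
        · simp [h, x.2 i h])
      right_inv := fun y => funext fun i => by simp [i.2] })]
  simp [Nat.card_fun]

theorem normalClosure_singleton [IsSimpleGroup T] (hna : ¬ IsMulCommutative T) (x : Fin m → T) :
    Subgroup.normalClosure {x} = coordSub (Finset.univ.filter fun i => x i ≠ 1) := by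
  refine le_antisymm (Subgroup.normalClosure_le_normal
    (N := coordSub (Finset.univ.filter fun i => x i ≠ 1)) ?_) fun y hy => ?_
  · rw [Set.singleton_subset_iff]
    intro i hi
    simpa using hi
  · refine Subgroup.pi_mem_of_mulSingle_mem y fun i => ?_
    by_cases hi : x i = 1
    · rw [show y i = 1 from hy i (by simpa using hi), Pi.mulSingle_one]
      exact one_mem _
    · exact mulSingle_mem_of_coord hna (M := Subgroup.normalClosure {x})
        (Subgroup.subset_normalClosure (Set.mem_singleton x)) hi _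

theorem wt_map [IsSimpleGroup T] [Finite T] (hna : ¬ IsMulCommutative T)
    (φ : MulAut (Fin m → T)) (x : Fin m → T) : wt (φ x) = wt x := by
  have h := Subgroup.map_normalClosure {x} φ.toMonoidHom φ.surjective
  rw [Set.image_singleton, normalClosure_singleton hna, normalClosure_singleton hna] at h
  have hc : Nat.card (coordSub (T := T) (Finset.univ.filter fun i => φ.toMonoidHom x i ≠ 1)) =
      Nat.card (coordSub (T := T) (Finset.univ.filter fun i => x i ≠ 1)) := by
    rw [← h]; exact (Nat.card_congr (Subgroup.equivMapOfInjective _ _ φ.injective).toEquiv).symm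
  rw [card_coordSub, card_coordSub] at hc
  haveI : Nontrivial T := IsSimpleGroup.toNontrivial
  exact Nat.pow_right_injective Finite.one_lt_card hc

/-- A maximal normal subgroup. -/
def MaxNormal {U : Type v} [Group U] (M : Subgroup U) : Prop :=
  M.Normal ∧ M ≠ ⊤ ∧ ∀ M' : Subgroup U, M'.Normal → M ≤ M' → M' = M ∨ M' = ⊤

theorem maxNormal_map {U : Type v} [Group U] (φ : MulAut U) {M : Subgroup U} (h : MaxNormal M) :
    MaxNormal (M.map φ.toMonoidHom) := by
  obtain ⟨h1, h2, h3⟩ := h
  haveI := h1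
  refine ⟨h1.map _ φ.surjective, fun e => h2 ?_, fun M' hM' hle => ?_⟩
  · refine Subgroup.map_injective (f := φ.toMonoidHom) φ.injective ?_
    rw [e, Subgroup.map_top_of_surjective _ φ.surjective]
  · rcases h3 (M'.comap φ.toMonoidHom) (hM'.comap _) (Subgroup.map_le_iff_le_comap.mp hle) with
      h | h
    · left; rw [← h, Subgroup.map_comap_eq_self_of_surjective φ.surjective]
    · right
      rw [← Subgroup.map_comap_eq_self_of_surjective (f := φ.toMonoidHom) φ.surjective M', h,
        Subgroup.map_top_of_surjective _ φ.surjective]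

/-- The kernel of a projection. -/
abbrev projKer (T : Type v) [Group T] {m : ℕ} (i : Fin m) : Subgroup (Fin m → T) :=
  (Pi.evalMonoidHom (fun _ : Fin m => T) i).ker

theorem mem_projKer {i : Fin m} {x : Fin m → T} : x ∈ projKer T i ↔ x i = 1 := MonoidHom.mem_ker

theorem maxNormal_iff [IsSimpleGroup T] (hna : ¬ IsMulCommutative T)
    {M : Subgroup (Fin m → T)} : MaxNormal M ↔ ∃ i, M = projKer T i := by
  have hker : ∀ i : Fin m, projKer T i ≠ ⊤ := fun i h => by
    haveI : Nontrivial T := IsSimpleGroup.toNontrivial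
    obtain ⟨t, ht⟩ := exists_ne (1 : T)
    exact ht (mem_projKer.mp (h ▸ trivial : (fun _ => t) ∈ projKer T i))
  have hle : ∀ M : Subgroup (Fin m → T), M.Normal → M ≠ ⊤ → ∃ i, M ≤ projKer T i := by
    intro M hM hne
    by_contra hc
    push Not at hc
    refine hne (eq_top_iff.mpr fun y _ => Subgroup.pi_mem_of_mulSingle_mem y fun i => ?_)
    obtain ⟨x, hx, hxi⟩ := SetLike.not_le_iff_exists.mp (hc i)
    exact mulSingle_mem_of_coord hna hx (fun e => hxi (mem_projKer.mpr e)) _
  constructor
  · rintro ⟨h1, h2, h3⟩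
    obtain ⟨i, hi⟩ := hle M h1 h2
    exact ⟨i, ((h3 _ inferInstance hi).resolve_right (hker i)).symm⟩
  · rintro ⟨i, rfl⟩
    refine ⟨inferInstance, hker i, fun M' hM' hle' => ?_⟩
    refine or_iff_not_imp_right.mpr fun hne => le_antisymm ?_ hle'
    obtain ⟨j, hj⟩ := hle M' hM' hne
    rcases eq_or_ne j i with rfl | hji
    · exact hj
    · exfalso
      haveI : Nontrivial T := IsSimpleGroup.toNontrivial
      obtain ⟨t, ht⟩ := exists_ne (1 : T)
      have := mem_projKer.mp (hj (hle' (mem_projKer.mpr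
        (Pi.mulSingle_eq_of_ne (M := fun _ : Fin m => T) hji.symm t) :
          Pi.mulSingle j t ∈ projKer T i)))
      simp only [Pi.mulSingle_eq_same] at this
      exact ht this

theorem four_lt_card [IsSimpleGroup T] [Finite T] (hna : ¬ IsMulCommutative T) :
    4 < Nat.card T := by
  by_contra hc
  push Not at hc
  have h1 : 1 < Nat.card T := by
    haveI : Nontrivial T := IsSimpleGroup.toNontrivial
    exact Finite.one_lt_card
  refine hna ?_
  interval_cases h : Nat.card T
  · haveI : IsCyclic T := isCyclic_of_prime_card (p := 2) h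
    exact ⟨⟨(IsCyclic.commGroup : CommGroup T).mul_comm⟩⟩
  · haveI : Fact (Nat.Prime 3) := ⟨Nat.prime_three⟩
    haveI : IsCyclic T := isCyclic_of_prime_card (p := 3) h
    exact ⟨⟨(IsCyclic.commGroup : CommGroup T).mul_comm⟩⟩
  · exact IsPGroup.isMulCommutative_of_card_eq_prime_sq (p := 2) (by rw [h]; norm_num)

theorem mem_iff_of_map_eq {U : Type v} [Group U] {φ : MulAut U} {H : Subgroup U}
    (h : H.map φ.toMonoidHom = H) {x : U} : φ x ∈ H ↔ x ∈ H := by
  constructor
  · intro hx
    rw [← h] at hx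
    obtain ⟨y, hy, e⟩ := hx
    rwa [← φ.injective e]
  · intro hx
    exact h.le ⟨x, hx, rfl⟩

/-- Some coset of `H` consists of vectors of large weight. -/
theorem exists_wt_bound [IsSimpleGroup T] [Finite T] (hna : ¬ IsMulCommutative T)
    (Γ : Set (MulAut (Fin m → T))) (H : Subgroup (Fin m → T))
    (hH : ∀ φ ∈ Γ, H.map φ.toMonoidHom = H)
    (hmin : ∀ M : Subgroup (Fin m → T), M.Normal →
      (∀ φ ∈ Γ, M.map φ.toMonoidHom = M) → M = ⊥ ∨ M = ⊤)
    (hmax : ∀ R : Subgroup (Fin m → T), H ≤ R →
      (∀ φ ∈ Γ, R.map φ.toMonoidHom = R) → R = H ∨ R = ⊤) :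
    ∃ t, ∀ h ∈ H, 3 * m ≤ 3 * cl H + 4 * wt (t * h) := by
  haveI : Nontrivial T := IsSimpleGroup.toNontrivial
  obtain ⟨a₀, ha₀⟩ := exists_ne (1 : T)
  -- the kernels not containing `H`
  set Q : Subgroup (Fin m → T) :=
    ⨅ M : {M : Subgroup (Fin m → T) // MaxNormal M ∧ ¬ H ≤ M}, M.1 with hQ
  have hQn : Q.Normal := Subgroup.normal_iInf_normal fun M => M.2.1.1
  have hinvK : ∀ φ ∈ Γ, ∀ K : Subgroup (Fin m → T),
      H ≤ K.map φ.toMonoidHom ↔ H ≤ K := by
    intro φ hφ K
    conv_lhs => rw [← hH φ hφ]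
    exact Subgroup.map_le_map_iff_of_injective φ.injective
  have hQinv : ∀ φ ∈ Γ, Q.map φ.toMonoidHom = Q := by
    intro φ hφ
    refine Subgroup.eq_of_le_of_card_ge (le_iInf fun M => ?_) (le_of_eq
      (Nat.card_congr (Subgroup.equivMapOfInjective _ _ φ.injective).toEquiv))
    have hM' : MaxNormal (M.1.map φ.symm.toMonoidHom) ∧ ¬ H ≤ M.1.map φ.symm.toMonoidHom := by
      refine ⟨maxNormal_map φ.symm M.2.1, fun hle => M.2.2 ?_⟩
      refine ((hinvK φ hφ _).mpr hle).trans (le_of_eq ?_)
      rw [Subgroup.map_map]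
      convert Subgroup.map_id M.1
      ext x : 1
      simp
    rintro _ ⟨x, hx, rfl⟩
    obtain ⟨y, hy, e⟩ := (iInf_le (fun M : {M : Subgroup (Fin m → T) //
      MaxNormal M ∧ ¬ H ≤ M} => M.1) ⟨_, hM'⟩) hx
    rw [← e]
    simpa using hy
  rcases hmin Q hQn hQinv with hQb | hQt
  swap
  · -- `H` is trivial
    have hHb : ∀ h ∈ H, h = 1 := by
      intro h hh
      funext i
      by_contra hi
      have hM : MaxNormal (projKer T i) ∧ ¬ H ≤ projKer T i :=
        ⟨(maxNormal_iff hna).mpr ⟨i, rfl⟩, fun hle => hi (mem_projKer.mp (hle hh))⟩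
      exact hM.1.2.1 (top_le_iff.mp (hQt.ge.trans (iInf_le
        (fun M : {M : Subgroup (Fin m → T) // MaxNormal M ∧ ¬ H ≤ M} => M.1) ⟨_, hM⟩)))
    refine ⟨fun _ => a₀, fun h hh => ?_⟩
    rw [hHb h hh, mul_one, show wt (fun _ : Fin m => a₀) = m by simp [wt, ha₀]]
    omega
  have hfullNe : ∀ i, ∃ h ∈ H, h i ≠ 1 := by
    intro i
    by_contra hc
    push Not at hc
    have : Pi.mulSingle i a₀ ∈ Q := by
      refine Subgroup.mem_iInf.mpr fun M => ?_
      obtain ⟨k, hk⟩ := (maxNormal_iff hna).mp M.2.1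
      rw [hk, mem_projKer]
      refine Pi.mulSingle_eq_of_ne (M := fun _ : Fin m => T) (fun e => M.2.2 ?_) a₀
      rw [hk, e]
      exact fun h hh => mem_projKer.mpr (hc h hh)
    rw [hQb, Subgroup.mem_bot] at this
    exact ha₀ (by simpa using congrFun this i)
  set R : Subgroup (Fin m → T) :=
    ⨅ M : {M : Subgroup (Fin m → T) // MaxNormal M}, H ⊔ M.1 with hR
  have hRinv : ∀ φ ∈ Γ, R.map φ.toMonoidHom = R := by
    intro φ hφ
    refine Subgroup.eq_of_le_of_card_ge (le_iInf fun M => ?_) (le_of_eq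
      (Nat.card_congr (Subgroup.equivMapOfInjective _ _ φ.injective).toEquiv))
    refine (Subgroup.map_mono (iInf_le (fun M : {M : Subgroup (Fin m → T) // MaxNormal M} =>
      H ⊔ M.1) ⟨_, maxNormal_map φ.symm M.2⟩)).trans ?_
    rw [Subgroup.map_sup, hH φ hφ, Subgroup.map_map]
    refine sup_le le_sup_left (le_sup_of_le_right (le_of_eq ?_))
    convert Subgroup.map_id M.1
    ext x : 1
    simp
  have hcoord : ∀ x : Fin m → T, x ∈ R ↔ ∀ i, ∃ h ∈ H, h i = x i := by
    intro x
    constructor
    · intro hx i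
      have h1 : x ∈ (H ⊔ projKer T i : Subgroup (Fin m → T)) :=
        Subgroup.mem_iInf.mp hx ⟨_, (maxNormal_iff hna).mpr ⟨i, rfl⟩⟩
      obtain ⟨h, hh, k, hk, rfl⟩ := Subgroup.mem_sup_of_normal_right.mp h1
      exact ⟨h, hh, by simp [mem_projKer.mp hk]⟩
    · intro hx
      refine Subgroup.mem_iInf.mpr fun M => ?_
      obtain ⟨i, hi⟩ := (maxNormal_iff hna).mp M.2
      obtain ⟨h, hh, he⟩ := hx i
      rw [show x = h * (h⁻¹ * x) by group, hi]
      exact mul_mem (Subgroup.mem_sup_left hh)
        (Subgroup.mem_sup_right (mem_projKer.mpr (by simp [he])))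
  rcases hmax R (fun x hx => (hcoord x).mpr fun i => ⟨x, hx, rfl⟩) hRinv with hRH | hRT
  · -- `H` is the product of its projections
    have hm : m ≤ cl H := by
      have := le_cl_of_coords (T := T) H.subtype (Finset.univ : Finset (Fin m)) fun j _ => by
        obtain ⟨h, hh, hj⟩ := hfullNe j
        have hx : Pi.mulSingle j (h j) ∈ H := hRH.le ((hcoord _).mpr fun i => by
          rcases eq_or_ne i j with rfl | hij
          · exact ⟨h, hh, by simp⟩
          · exact ⟨1, one_mem _, by simp [hij]⟩)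
        exact ⟨(⟨_, hx⟩ : H), by simpa using hj, fun i _ hij => by simp [hij]⟩
      simpa using this
    exact ⟨1, fun h _ => by omega⟩
  -- all projections are onto
  have hfull : ∀ i (u : T), ∃ h ∈ H, h i = u := fun i u =>
    (hcoord (fun _ => u)).mp (hRT ▸ trivial) i
  obtain ⟨S, hS', hSmax⟩ := (Finset.univ.filter fun S : Finset (Fin m) =>
    ∀ h ∈ H, h ∈ coordSub S → h = 1).exists_max_image Finset.card ⟨∅, by
      simp only [Finset.mem_filter, Finset.mem_univ, true_and]
      exact fun h _ hh => funext fun i => hh i (by simp)⟩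
  have hS : ∀ h ∈ H, h ∈ coordSub S → h = 1 := (Finset.mem_filter.mp hS').2
  set E : Fin m → Set (Fin m → T) := fun i => {h | h ∈ H ∧ h ∈ coordSub (insert i S)} with hE
  have hEfull : ∀ i ∉ S, ∀ u : T, ∃ h ∈ E i, h i = u := by
    intro i hi
    set P : Subgroup T := (H ⊓ coordSub (insert i S)).map
      (Pi.evalMonoidHom (fun _ : Fin m => T) i) with hP
    have hPn : P.Normal := by
      constructor
      rintro _ ⟨h, hh, rfl⟩ u
      obtain ⟨k, hk, rfl⟩ := hfull i u
      refine ⟨k * h * k⁻¹, ⟨H.mul_mem (H.mul_mem hk hh.1) (H.inv_mem hk), ?_⟩, rfl⟩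
      exact (coordSub_normal _).conj_mem _ hh.2 _
    intro u
    rcases hPn.eq_bot_or_eq_top with hb | ht
    · have hnot : ¬ ∀ h ∈ H, h ∈ coordSub (insert i S) → h = 1 := fun h' =>
        absurd (hSmax (insert i S) (Finset.mem_filter.mpr ⟨Finset.mem_univ _, h'⟩))
          (by rw [Finset.card_insert_of_notMem hi]; omega)
      push Not at hnot
      obtain ⟨h, hh, hhS, hne⟩ := hnot
      refine absurd (hS h hh fun k hk => ?_) hne
      rcases eq_or_ne k i with rfl | hki
      · exact Subgroup.mem_bot.mp (hb.le ⟨h, ⟨hh, hhS⟩, rfl⟩)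
      · exact hhS k (by simp [hki, hk])
    · obtain ⟨h, hh, he⟩ : u ∈ P := ht ▸ trivial
      exact ⟨h, hh, he⟩
  have hgen : ∀ A : Finset (Fin m), Disjoint A S → ∀ h ∈ H, h ∈ coordSub (A ∪ S) →
      h ∈ Subgroup.closure (⋃ i ∈ A, E i) := by
    intro A
    induction A using Finset.induction with
    | empty =>
      intro _ h hh hhS
      rw [Finset.empty_union] at hhS
      rw [hS h hh hhS]
      exact one_mem _
    | @insert i A hiA ih =>
      intro hd h hh hhS
      rw [Finset.disjoint_insert_left] at hd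
      obtain ⟨e, he, hei⟩ := hEfull i hd.1 (h i)
      have h1 : e⁻¹ * h ∈ coordSub (A ∪ S) := by
        intro k hk
        rcases eq_or_ne k i with rfl | hki
        · simp [hei]
        · simp only [Finset.mem_union, not_or] at hk
          simp [he.2 k (by simp [hki, hk.2]), hhS k (by simp [hki, hk.1, hk.2])]
      rw [show h = e * (e⁻¹ * h) by group]
      refine mul_mem (Subgroup.subset_closure ?_) (Subgroup.closure_mono ?_
        (ih hd.2 _ (mul_mem (inv_mem he.1) hh) h1))
      · simp only [Set.mem_iUnion]; exact ⟨i, Finset.mem_insert_self _ _, he⟩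
      · exact Set.iUnion₂_mono' fun k hk => ⟨k, Finset.mem_insert_of_mem hk, subset_rfl⟩
  -- each coordinate in `S` follows exactly one coordinate outside `S`
  have hpi : ∀ j ∈ S, ∃ i ∉ S, ∀ h ∈ H, h i = 1 ↔ h j = 1 := by
    intro j hj
    have hex : ∃ i ∉ S, ∃ e ∈ E i, e j ≠ 1 := by
      by_contra hc
      push Not at hc
      obtain ⟨h, hh, hhj⟩ := hfullNe j
      have h1 := hgen Sᶜ disjoint_compl_left h hh (fun k hk => by simp at hk)
      refine hhj ((Subgroup.closure_le (K := projKer T j)).mpr ?_ h1)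
      simp only [Set.iUnion_subset_iff]
      exact fun i hi e he => mem_projKer.mpr (hc i (by simpa using hi) e he)
    obtain ⟨i, hi, e₀, he₀, he₀j⟩ := hex
    have hEj : ∀ u : T, ∃ e ∈ E i, e j = u := by
      set P : Subgroup T := (H ⊓ coordSub (insert i S)).map
        (Pi.evalMonoidHom (fun _ : Fin m => T) j) with hP
      have hPn : P.Normal := by
        constructor
        rintro _ ⟨h, hh, rfl⟩ u
        obtain ⟨k, hk, rfl⟩ := hfull j u
        refine ⟨k * h * k⁻¹, ⟨H.mul_mem (H.mul_mem hk hh.1) (H.inv_mem hk), ?_⟩, rfl⟩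
        exact (coordSub_normal _).conj_mem _ hh.2 _
      intro u
      rcases hPn.eq_bot_or_eq_top with hb | ht
      · exact absurd (Subgroup.mem_bot.mp (hb.le ⟨e₀, he₀, rfl⟩)) he₀j
      · obtain ⟨h, hh, he⟩ : u ∈ P := ht ▸ trivial
        exact ⟨h, hh, he⟩
    have hother : ∀ k ∉ S, k ≠ i → ∀ e ∈ E k, e j = 1 := by
      intro k hk hki e he
      by_contra hne
      obtain ⟨b, hb⟩ := exists_not_commute hna hne
      obtain ⟨f, hf, hfb⟩ := hEj b
      have hcom : e * f * e⁻¹ * f⁻¹ = 1 := by
        refine hS _ (mul_mem (mul_mem (mul_mem he.1 hf.1) (inv_mem he.1)) (inv_mem hf.1))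
          fun l hl => ?_
        rcases eq_or_ne l i with rfl | hli
        · simp [he.2 l (by simp [hki.symm, hl])]
        · simp [hf.2 l (by simp [hli, hl])]
      have h' := congrFun hcom j
      simp only [Pi.mul_apply, Pi.inv_apply, Pi.one_apply, mul_inv_eq_one, mul_inv_eq_iff_eq_mul]
        at h'
      rw [hfb] at h'
      rw [one_mul] at h'
      exact hb h'
    have hfwd : ∀ h ∈ H, h i = 1 → h j = 1 := by
      intro h hh hhi
      have hd : Disjoint (Sᶜ.erase i) S :=
        Finset.disjoint_left.mpr fun k hk => by simp at hk; exact hk.2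
      have h1 := hgen _ hd h hh (fun k hk => by
        simp only [Finset.mem_union, Finset.mem_erase, Finset.mem_compl, not_or, not_and_or,
          not_not] at hk
        rcases hk.1 with rfl | h'
        · exact hhi
        · exact absurd h' hk.2)
      refine (Subgroup.closure_le (K := projKer T j)).mpr ?_ h1
      simp only [Set.iUnion_subset_iff]
      intro k hk e he
      simp at hk
      exact mem_projKer.mpr (hother k hk.2 hk.1 e he)
    refine ⟨i, hi, fun h hh => ⟨hfwd h hh, fun hhj => ?_⟩⟩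
    set K : Subgroup T := (H ⊓ projKer T j).map (Pi.evalMonoidHom (fun _ : Fin m => T) i) with hK
    have hKn : K.Normal := by
      constructor
      rintro _ ⟨h, hh, rfl⟩ u
      obtain ⟨k, hk, rfl⟩ := hfull i u
      refine ⟨k * h * k⁻¹, ⟨H.mul_mem (H.mul_mem hk hh.1) (H.inv_mem hk), ?_⟩, rfl⟩
      exact (inferInstance : (projKer T j).Normal).conj_mem _ hh.2 _
    rcases hKn.eq_bot_or_eq_top with hb | ht
    · exact Subgroup.mem_bot.mp (hb.le ⟨h, ⟨hh, mem_projKer.mpr hhj⟩, rfl⟩)
    · exfalso
      obtain ⟨g, hg, hge⟩ : e₀ i ∈ K := ht ▸ trivial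
      have h1 := hfwd (g⁻¹ * e₀) (mul_mem (inv_mem hg.1) he₀.1)
        (by simp [show g i = e₀ i from hge])
      simp [mem_projKer.mp hg.2] at h1
      exact he₀j h1
  choose! ρ hρS hρ using hpi
  -- composition length of `H`
  have hclH : Sᶜ.card ≤ cl H := le_cl_of_coords (T := T) H.subtype Sᶜ fun i hi => by
    obtain ⟨e, he, hei⟩ := hEfull i (by simpa using hi) a₀
    exact ⟨(⟨e, he.1⟩ : H), by simp [hei, ha₀],
      fun k hk hki => he.2 k (by simpa [hki] using hk)⟩
  have hcard : 4 < Nat.card T := four_lt_card hna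
  haveI : Fintype T := Fintype.ofFinite T
  obtain ⟨γ⟩ : Nonempty (Fin 4 ↪ {t : T // t ≠ 1}) := by
    refine Function.Embedding.nonempty_of_card_le ?_
    rw [Fintype.card_fin, Fintype.card_subtype_compl, Fintype.card_subtype_eq,
      ← Nat.card_eq_fintype_card]
    omega
  set idx : Fin m → ℕ := fun j => (S.filter fun k => ρ k = ρ j ∧ k < j).card with hidx
  have hidx_lt : ∀ j ∈ S, ∀ i, ρ j = i → idx j < (S.filter fun k => ρ k = i).card := by
    rintro j hj _ rfl
    refine Finset.card_lt_card (Finset.ssubset_iff_of_subset (fun k hk => ?_) |>.mpr ⟨j, ?_, ?_⟩)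
    · simp at hk ⊢; exact ⟨hk.1, hk.2.1⟩
    · simp [hj]
    · simp
  have hidx_inj : ∀ j ∈ S, ∀ k ∈ S, ρ j = ρ k → idx j = idx k → j = k := by
    intro j hj k hk hr he
    by_contra hne
    rcases lt_or_gt_of_ne hne with hlt | hlt
    · refine (Finset.card_lt_card (Finset.ssubset_iff_of_subset (fun l hl => ?_) |>.mpr
        ⟨j, ?_, ?_⟩)).ne he
      · simp at hl ⊢; exact ⟨hl.1, hl.2.1.trans hr, hl.2.2.trans hlt⟩
      · simp [hj, hr, hlt]
      · simp
    · refine (Finset.card_lt_card (Finset.ssubset_iff_of_subset (fun l hl => ?_) |>.mpr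
        ⟨k, ?_, ?_⟩)).ne he.symm
      · simp at hl ⊢; exact ⟨hl.1, hl.2.1.trans hr.symm, hl.2.2.trans hlt⟩
      · simp [hk, hr, hlt]
      · simp
  set val : Fin m → T := fun j => (γ ⟨idx j % 4, Nat.mod_lt _ (by norm_num)⟩).1 with hval
  choose g hgH hg using fun j => hfull (ρ j) (val j)
  refine ⟨fun j => if j ∈ S then (g j j)⁻¹ else 1, fun h hh => ?_⟩
  set t : Fin m → T := fun j => if j ∈ S then (g j j)⁻¹ else 1 with ht
  have hsplit : ∀ j ∈ S, (t * h) j = 1 → h (ρ j) = val j := by
    intro j hj he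
    have h1 : ((g j)⁻¹ * h) j = 1 := by simpa [ht, hj] using he
    have h2 := (hρ j hj _ (mul_mem (inv_mem (hgH j)) hh)).mpr h1
    simp only [Pi.mul_apply, Pi.inv_apply, inv_mul_eq_one] at h2
    rw [← h2, hg j]
  have hwt : (Sᶜ.filter fun i => h i ≠ 1).card + (S.filter fun j => h (ρ j) ≠ val j).card ≤
      wt (t * h) := by
    rw [← Finset.card_union_of_disjoint (Finset.disjoint_left.mpr fun k hk hk' => by
      simp at hk hk'; exact hk.1 hk'.1)]
    refine Finset.card_le_card fun k hk => ?_
    simp only [Finset.mem_union, Finset.mem_filter, Finset.mem_compl] at hk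
    simp only [Finset.mem_filter, Finset.mem_univ, true_and]
    rcases hk with ⟨hk, hne⟩ | ⟨hk, hne⟩
    · simpa [ht, hk] using hne
    · exact fun he => hne (hsplit k hk he)
  have hfib : ∀ i ∈ Sᶜ, 3 * (S.filter fun j => ρ j = i).card ≤
      4 * ((if h i ≠ 1 then 1 else 0) + (S.filter fun j => ρ j = i ∧ h i ≠ val j).card) := by
    intro i _
    set l := (S.filter fun j => ρ j = i).card with hl
    have hsum : (S.filter fun j => ρ j = i ∧ h i = val j).card +
        (S.filter fun j => ρ j = i ∧ h i ≠ val j).card = l := by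
      rw [hl, ← Finset.filter_filter, ← Finset.filter_filter,
        Finset.card_filter_add_card_filter_not]
    by_cases hi1 : h i = 1
    · have : (S.filter fun j => ρ j = i ∧ h i = val j).card = 0 := by
        rw [Finset.card_eq_zero, Finset.filter_eq_empty_iff]
        intro j _ hc
        exact (γ ⟨idx j % 4, Nat.mod_lt _ (by norm_num)⟩).2 (hc.2.symm.trans hi1)
      rw [if_neg (by simpa using hi1)]
      omega
    · have : (S.filter fun j => ρ j = i ∧ h i = val j).card ≤ (l + 3) / 4 := by
        refine le_trans (Finset.card_le_card_of_injOn (fun j => idx j / 4) ?_ ?_)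
          (Finset.card_range _).le
        · intro j hj
          simp only [Finset.coe_filter, Set.mem_setOf_eq] at hj
          simp only [Finset.coe_range, Set.mem_Iio]
          have := hidx_lt j hj.1 i hj.2.1
          omega
        · intro j hj k hk he
          simp only [Finset.coe_filter, Set.mem_setOf_eq] at hj hk
          simp only at he
          refine hidx_inj j hj.1 k hk.1 (hj.2.1.trans hk.2.1.symm) ?_
          have := Fin.mk.inj_iff.mp (γ.injective (Subtype.ext (hj.2.2.symm.trans hk.2.2)))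
          omega
      rw [if_pos hi1]
      omega
  have hS3 : S.card = ∑ i ∈ Sᶜ, (S.filter fun j => ρ j = i).card :=
    Finset.card_eq_sum_card_fiberwise fun j hj => by simpa using hρS j hj
  have hS2 : (S.filter fun j => h (ρ j) ≠ val j).card =
      ∑ i ∈ Sᶜ, (S.filter fun j => ρ j = i ∧ h i ≠ val j).card := by
    rw [Finset.card_eq_sum_card_fiberwise (f := ρ) (t := Sᶜ)
      (fun j hj => by simp at hj; simpa using hρS j hj.1)]
    refine Finset.sum_congr rfl fun i _ => congrArg Finset.card ?_
    ext j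
    simp only [Finset.mem_filter]
    constructor
    · rintro ⟨⟨h1, h2⟩, rfl⟩; exact ⟨h1, rfl, h2⟩
    · rintro ⟨h1, rfl, h2⟩; exact ⟨⟨h1, h2⟩, rfl⟩
  have hmain := Finset.sum_le_sum hfib
  rw [← Finset.mul_sum, ← Finset.mul_sum, Finset.sum_add_distrib, ← hS3, ← hS2,
    ← Finset.card_filter] at hmain
  have hm : S.card + Sᶜ.card = m := by rw [Finset.card_add_card_compl, Fintype.card_fin]
  omega

end Cfsg.Agent.CompLen
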