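import Cfsg.Agent.CompLen.Basic

/-!
Numerical and generation lemmas for the composition length bound.
-/

set_option autoImplicit false
set_option linter.style.haveILetI false

open scoped Classical Nat
open ArithmeticFunction
open scoped ArithmeticFunction.Omega

namespace Cfsg.Agent.CompLen

universe u

theorem cl_le_of_surjective {G : Type u} [Group G] [Finite G] {H : Type*} [Group H] (f : G →* H)
    (hf : Function.Surjective f) : cl H ≤ cl G :=
  le_trans (Nat.le_add_left _ _) (ker_add_cl_le f hf)

theorem exists_generators (G : Type u) [Group G] [Finite G] :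
    ∃ s : Finset G, (1 : G) ∉ s ∧ Subgroup.closure (s : Set G) = ⊤ ∧ s.card ≤ Ω (Nat.card G) := by
  suffices h : ∀ K : Subgroup G, ∃ s : Finset G, (1 : G) ∉ s ∧
      Subgroup.closure (s : Set G) ⊔ K = ⊤ ∧ s.card + Ω (Nat.card K) ≤ Ω (Nat.card G) by
    obtain ⟨s, h1, h2, h3⟩ := h ⊥
    exact ⟨s, h1, by simpa using h2, by omega⟩
  intro K
  induction K using WellFoundedGT.induction with
  | _ K ih =>
    by_cases hK : K = ⊤
    · exact ⟨∅, by simp, by simp [hK], by simp [hK]⟩
    · obtain ⟨x, -, hx⟩ := SetLike.exists_of_lt (lt_top_iff_ne_top.mpr hK)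
      have hlt : K < K ⊔ Subgroup.zpowers x := left_lt_sup.mpr fun h => hx
        (h (Subgroup.mem_zpowers x))
      obtain ⟨s, h1, h2, h3⟩ := ih _ hlt
      refine ⟨insert x s, ?_, ?_, ?_⟩
      · rw [Finset.mem_insert, not_or]
        exact ⟨fun e => hx (e ▸ one_mem K), h1⟩
      · rw [Finset.coe_insert, Set.insert_eq, Subgroup.closure_union,
          ← Subgroup.zpowers_eq_closure, sup_comm _ K, ← sup_assoc, sup_comm]
        exact h2
      · have := cardFactors_mono_card hlt.le
        rw [if_pos hlt.ne] at this
        have := Finset.card_insert_le x s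
        omega

theorem primeFactorsList_5040 :
    List.Perm [2, 2, 2, 2, 3, 3, 5, 7] (Nat.primeFactorsList 5040) :=
  Nat.primeFactorsList_unique (by norm_num) (by simp [Nat.prime_two, Nat.prime_three,
    Nat.prime_five, (by norm_num : Nat.Prime 7)])

theorem cardFactors_5040 : Ω 5040 = 8 := by
  rw [cardFactors_apply, ← primeFactorsList_5040.length_eq]; rfl

/-- The inequality needed for an affine primitive group. -/
theorem affine_ineq {r d n c m : ℕ} (hr : r.Prime) (hn : n = r ^ d) (hd : 1 ≤ d)
    (hc : c ≤ Ω m) (hm : m ≠ 0) (hdvd : m ∣ (n - 1)!) (hle : m ≤ (n - 1) ^ d) :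
    3 * (d + c) ≤ 4 * (n - 1) := by
  have h2 : 2 ^ c ≤ (n - 1) ^ d :=
    ((Nat.pow_le_pow_right (by norm_num) hc).trans (two_pow_cardFactors_le hm)).trans hle
  have hdn : 2 ^ d ≤ n := hn ▸ Nat.pow_le_pow_left hr.two_le d
  by_cases hbig : 32 ≤ n
  · set L := Nat.log 2 n with hL
    have h1 : n < 2 ^ (L + 1) := Nat.lt_pow_succ_log_self (by norm_num) n
    have hdL : d ≤ L := Nat.le_log_of_pow_le (by norm_num) hdn
    have h3 : c < (L + 1) * d := by
      refine (Nat.pow_lt_pow_iff_right (a := 2) (by norm_num)).mp (h2.trans_lt ?_)
      rw [pow_mul]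
      exact Nat.pow_lt_pow_left (by omega) (by omega)
    have h4 : (L + 1) * d ≤ (L + 1) * L := Nat.mul_le_mul_left _ hdL
    have h5 : 5 ≤ L := Nat.le_log_of_pow_le (by norm_num) (by simpa using hbig)
    have h6 : 2 ^ L ≤ n := Nat.pow_log_le_self 2 (by omega)
    have h7 : ∀ k, 5 ≤ k → 3 * k * k + 6 * k ≤ 4 * 2 ^ k - 4 := by
      intro k hk
      induction k, hk using Nat.le_induction with
      | base => norm_num
      | succ k hk ih =>
        have : 32 ≤ 2 ^ k := le_trans (by norm_num) (Nat.pow_le_pow_right (by norm_num) hk)
        rw [pow_succ]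
        have : 5 * k ≤ k * k := Nat.mul_le_mul_right k hk
        have : 3 * (k + 1) * (k + 1) = 3 * (k * k) + 6 * k + 3 := by ring
        have : 3 * k * k = 3 * (k * k) := by ring
        omega
    have := h7 L h5
    have : (L + 1) * L = L * L + L := by ring
    have : 3 * L * L = 3 * (L * L) := by ring
    omega
  · have hd4 : d < 5 := (Nat.pow_lt_pow_iff_right (a := 2) (by norm_num)).mp
      (hdn.trans_lt (by omega : n < 2 ^ 5))
    rcases Nat.lt_or_ge d 2 with hd1 | hd2
    · obtain rfl : d = 1 := by omega
      rw [pow_one] at h2 hn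
      have := hr.two_le
      have := Nat.lt_two_pow_self (n := c)
      omega
    · have hr5 : r ≤ 5 := by
        by_contra hc'
        have : r ^ 2 ≤ n := hn ▸ Nat.pow_le_pow_right hr.pos hd2
        nlinarith
      have key : ∀ X, (n - 1) ^ d < 2 ^ (X + 1) → c ≤ X := fun X hX =>
        Nat.lt_succ_iff.mp ((Nat.pow_lt_pow_iff_right (a := 2) (by norm_num)).mp (h2.trans_lt hX))
      have := hr.two_le
      interval_cases r
      all_goals interval_cases d
      all_goals try norm_num at hr
      all_goals try norm_num at hn
      all_goals try norm_num at hbig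
      all_goals try norm_num
      all_goals subst hn
      -- 4
      · have := key 2
        have h6 : Ω m ≤ 2 := by
          have := cardFactors_le_of_dvd (by norm_num) hdvd
          rw [show (4 - 1)! = 2 * 3 by decide, cardFactors_mul (by norm_num) (by norm_num),
            cardFactors_apply_prime Nat.prime_two, cardFactors_apply_prime Nat.prime_three] at this
          omega
        omega
      -- 8
      · have h6 : Ω m ≤ 6 := by
          by_contra hc'
          obtain ⟨q, hq⟩ := hdvd
          have hq' : m * q = 5040 := by rw [← hq]; rfl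
          have hm343 : m ≤ 343 := hle.trans (by norm_num)
          have hq0 : q ≠ 0 := by rintro rfl; omega
          have hsum : Ω m + Ω q = 8 := by
            rw [← cardFactors_mul hm hq0, hq', cardFactors_5040]
          have hq15 : 15 ≤ q := by nlinarith
          have hq1 : 0 < Ω q := cardFactors_pos_iff_one_lt.mpr (by omega)
          have hqp : q.Prime := cardFactors_eq_one_iff_prime.mp (by omega)
          have : q ∈ Nat.primeFactorsList 5040 :=
            (Nat.mem_primeFactorsList (by norm_num)).mpr ⟨hqp, ⟨m, by rw [← hq', mul_comm]⟩⟩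
          rw [← primeFactorsList_5040.mem_iff] at this
          simp at this
          omega
        omega
      all_goals
        first
        | omega
        | (have h' := key 8; norm_num at h'; omega)
        | (have h' := key 16; norm_num at h'; omega)
        | (have h' := key 30; norm_num at h'; omega)

end Cfsg.Agent.CompLen
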