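import Cfsg.Agent.CompLen.Coords
import Cfsg.Agent.CompLen.Count
import Cfsg.Agent.PrimStruct.Basic
import Cfsg.Agent.PermB.DirectPower

/-!
The composition length of a permutation group of degree `n` with `r` orbits is at most `4(n-r)/3`.
-/

set_option autoImplicit false
set_option linter.style.haveILetI false

open scoped Classical
open MulAction

namespace Cfsg.Agent.CompLen

universe u v w

/-- The number of orbits. -/
noncomputable def orbs (G : Type u) [Group G] (X : Type v) [MulAction G X] : ℕ :=
  Nat.card (Quotient (orbitRel G X))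

theorem card_le_orbs {G : Type u} [Group G] {X : Type v} [MulAction G X] [Finite X] {Y : Type w}
    (f : X → Y) (hf : Function.Surjective f) (hinv : ∀ (g : G) (x : X), f (g • x) = f x) :
    Nat.card Y ≤ orbs G X := by
  refine Nat.card_le_card_of_surjective (Quotient.lift f fun x y h => ?_) fun y => ?_
  · obtain ⟨g, rfl⟩ := h
    exact hinv g y
  · obtain ⟨x, rfl⟩ := hf y
    exact ⟨Quotient.mk _ x, rfl⟩

/-- The bound for one degree. -/
def Bound (n : ℕ) : Prop :=
  ∀ G : Subgroup (Equiv.Perm (Fin n)), 3 * cl G + 4 * orbs G (Fin n) ≤ 4 * n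

theorem Bound.apply {n : ℕ} (h : Bound n) {G : Type u} [Group G] [Finite G]
    {X : Type w} [MulAction G X] [FaithfulSMul G X] [Finite X] (hX : Nat.card X = n) :
    3 * cl G + 4 * orbs G X ≤ 4 * n := by
  obtain ⟨e⟩ : Nonempty (X ≃ Fin n) := ⟨(Finite.equivFin X).trans (finCongr hX)⟩
  letI : MulAction G (Fin n) :=
    { smul := fun g i => e (g • e.symm i)
      one_smul := fun i => show e ((1 : G) • e.symm i) = i by rw [one_smul, e.apply_symm_apply]
      mul_smul := fun g k i => show e ((g * k) • e.symm i) = e (g • e.symm (e (k • e.symm i))) by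
        rw [e.symm_apply_apply, mul_smul] }
  have hsm : ∀ (g : G) (x : X), g • e x = e (g • x) := fun g x =>
    show e (g • e.symm (e x)) = _ by rw [e.symm_apply_apply]
  haveI : FaithfulSMul G (Fin n) := ⟨fun {g k} hgk => eq_of_smul_eq_smul fun x => e.injective (by
    rw [← hsm, ← hsm]; exact hgk (e x))⟩
  set f := MulAction.toPermHom G (Fin n) with hf
  have := h f.range
  have hcl : cl f.range = cl G :=
    (cl_eq_of_equiv (MonoidHom.ofInjective (f := f) MulAction.toPerm_injective)).symm
  have horb : orbs G (Fin n) ≤ orbs f.range (Fin n) := by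
    refine card_le_orbs (fun i => Quotient.mk (orbitRel G (Fin n)) i) Quotient.mk_surjective ?_
    rintro ⟨_, g, rfl⟩ i
    exact Quotient.sound ⟨g, rfl⟩
  have heq : orbs G X ≤ orbs G (Fin n) := by
    unfold orbs
    refine Nat.card_le_card_of_surjective
      (Quotient.lift (fun i => Quotient.mk (orbitRel G X) (e.symm i)) fun i j hij => ?_) ?_
    · obtain ⟨g, rfl⟩ := hij
      refine Quotient.sound ⟨g, ?_⟩
      show g • e.symm j = e.symm (g • j)
      rw [Equiv.eq_symm_apply, ← hsm, e.apply_symm_apply]
    · intro q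
      induction q using Quotient.ind with
      | _ x => exact ⟨Quotient.mk _ (e x), by simp⟩
  omega

theorem one_le_orbs {G : Type u} [Group G] {X : Type v} [MulAction G X] [Finite X] [Nonempty X] :
    1 ≤ orbs G X := by
  haveI : Nonempty (Quotient (orbitRel G X)) := (inferInstance : Nonempty X).map (Quotient.mk _)
  exact Nat.card_pos

theorem ker_orbs {n : ℕ} (hn : Bound n) {G : Type u} [Group G] [Finite G]
    {X : Type w} [MulAction G X] [Finite X] [Nonempty X] (hX : Nat.card X = n) :
    3 * cl (MulAction.toPermHom G X).range + 4 ≤ 4 * n := by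
  have := hn.apply (G := (MulAction.toPermHom G X).range) (X := X) hX
  have := one_le_orbs (G := (MulAction.toPermHom G X).range) (X := X)
  omega

theorem intransitive {n : ℕ} (ih : ∀ k < n, Bound k) {G : Type u} [Group G] [Finite G]
    {X : Type w} [MulAction G X] [FaithfulSMul G X] [Finite X] (hX : Nat.card X = n) (a : X)
    (ha : orbit G a ≠ Set.univ) : 3 * cl G + 4 * orbs G X ≤ 4 * n := by
  haveI : Nonempty ↥(orbit G a) := ⟨⟨a, mem_orbit_self a⟩⟩
  have hsum : Nat.card ↥(orbit G a) + Nat.card ↥(orbit G a)ᶜ = n := by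
    rw [← hX, ← Nat.card_sum]
    exact Nat.card_congr (Equiv.Set.sumCompl (orbit G a))
  have hpos : 0 < Nat.card ↥(orbit G a) := Nat.card_pos
  have hpos' : 0 < Nat.card ↥(orbit G a)ᶜ := by
    haveI : Nonempty ↥(orbit G a)ᶜ := (Set.nonempty_compl.mpr ha).to_subtype
    exact Nat.card_pos
  set f := MulAction.toPermHom G ↥(orbit G a) with hf
  have h1 := ker_orbs (ih _ (by omega)) (G := G) (X := ↥(orbit G a)) rfl
  let p : SubMulAction f.ker X :=
    { carrier := (orbit G a)ᶜ
      smul_mem' := fun k x hx hkx => hx (by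
        have := MulAction.mem_orbit_of_mem_orbit ((k : G))⁻¹ hkx
        simpa [Subgroup.smul_def] using this) }
  haveI : FaithfulSMul f.ker ↥p := ⟨fun {k l} hkl => Subtype.ext (eq_of_smul_eq_smul fun x => by
    by_cases hx : x ∈ orbit G a
    · have hk := congrArg (fun σ : Equiv.Perm ↥(orbit G a) => ((σ ⟨x, hx⟩ : ↥(orbit G a)) : X))
        (k.2 : f k = 1)
      have hl := congrArg (fun σ : Equiv.Perm ↥(orbit G a) => ((σ ⟨x, hx⟩ : ↥(orbit G a)) : X))
        (l.2 : f l = 1)
      exact hk.trans hl.symm
    · exact congrArg Subtype.val (hkl (⟨x, hx⟩ : ↥p)))⟩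
  have h2 := (ih (Nat.card ↥p) (by
    show Nat.card ↥(orbit G a)ᶜ < n
    omega)).apply (G := f.ker) (X := ↥p) rfl
  set q₀ : Quotient (orbitRel G X) := Quotient.mk _ a with hq₀
  have h3 : Nat.card {q : Quotient (orbitRel G X) // q ≠ q₀} ≤ orbs f.ker ↥p := by
    refine card_le_orbs (fun x => ⟨Quotient.mk _ x.1, fun e => x.2 ?_⟩) ?_ fun k x => Subtype.ext ?_
    · exact Quotient.exact e
    · rintro ⟨q, hq⟩
      induction q using Quotient.ind with
      | _ x => exact ⟨⟨x, fun hx => hq (Quotient.sound hx)⟩, rfl⟩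
    · exact Quotient.sound ⟨(k : G), rfl⟩
  have h4 : orbs G X = Nat.card {q : Quotient (orbitRel G X) // q ≠ q₀} + 1 := by
    haveI : Fintype (Quotient (orbitRel G X)) := Fintype.ofFinite _
    unfold orbs
    rw [Nat.card_eq_fintype_card, Nat.card_eq_fintype_card, Fintype.card_subtype_compl,
      Fintype.card_subtype_eq]
    have : 0 < Fintype.card (Quotient (orbitRel G X)) := Fintype.card_pos_iff.mpr ⟨q₀⟩
    omega
  have h5 := cl_le_ker_add_range f
  change 3 * cl f.range + 4 ≤ _ at h1
  have h6 : Nat.card ↥p = Nat.card ↥(orbit G a)ᶜ := rfl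
  omega

theorem imprimitive {n : ℕ} (ih : ∀ k < n, Bound k) {G : Type u} [Group G] [Finite G]
    {X : Type w} [MulAction G X] [FaithfulSMul G X] [Finite X] [IsPretransitive G X]
    (hX : Nat.card X = n) (a : X) (H : Subgroup G) (h1 : stabilizer G a < H) (h2 : H ≠ ⊤) :
    3 * cl G + 4 ≤ 4 * n := by
  have hidx : H.index < n := by
    rw [← hX, ← index_stabilizer_of_transitive G a]
    exact Subgroup.index_strictAnti h1
  set f := MulAction.toPermHom G (G ⧸ H) with hf
  have h3 := ker_orbs (ih H.index hidx) (G := G) (X := G ⧸ H) rfl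
  have hK := fun g => exists_smul_eq G a g
  choose sel hsel using hK
  have h4 : H.index ≤ orbs f.ker X := by
    refine card_le_orbs (fun x => ((sel x : G) : G ⧸ H)) (fun q => ?_) fun k x => ?_
    · induction q using QuotientGroup.induction_on with
      | _ g =>
        refine ⟨g • a, QuotientGroup.eq.mpr (h1.le ?_)⟩
        rw [mem_stabilizer_iff, mul_smul, inv_smul_eq_iff, hsel]
    · have hk : ((sel (k • x) : G) : G ⧸ H) = (((k : G) * sel x : G) : G ⧸ H) := by
        refine QuotientGroup.eq.mpr (h1.le ?_)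
        rw [mem_stabilizer_iff, mul_smul, mul_smul, inv_smul_eq_iff, hsel, hsel]
        rfl
      rw [hk]
      exact congrArg (fun σ : Equiv.Perm (G ⧸ H) => σ ((sel x : G) : G ⧸ H)) (k.2 : f k = 1)
  haveI : FaithfulSMul f.ker X := ⟨fun {k l} hkl => Subtype.ext (eq_of_smul_eq_smul fun x => hkl x)⟩
  have hn2 : 2 ≤ H.index := by
    have := Subgroup.index_ne_zero_of_finite (H := H)
    have : H.index ≠ 1 := fun h => h2 (Subgroup.index_eq_one.mp h)
    omega
  have h5 := cl_le_ker_add_range f
  change 3 * cl f.range + 4 ≤ _ at h3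
  -- the kernel has at least `H.index` orbits, all of them smaller
  have h6 : 3 * cl f.ker + 4 * orbs f.ker X ≤ 4 * n := by
    obtain ⟨b⟩ : Nonempty X := ⟨a⟩
    refine intransitive ih hX b fun he => ?_
    have : orbs f.ker X ≤ 1 := by
      haveI : Subsingleton (Quotient (orbitRel f.ker X)) := ⟨fun p q => by
        induction p using Quotient.ind
        induction q using Quotient.ind
        rename_i x y
        exact Quotient.sound ((orbit_eq_iff.mp ((orbit_eq_iff.mpr (he ▸ trivial : x ∈ orbit f.ker b)).trans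
          (orbit_eq_iff.mpr (he ▸ trivial : y ∈ orbit f.ker b)).symm)))⟩
      exact Finite.card_le_one_iff_subsingleton.mpr inferInstance
    omega
  omega

theorem key_nonabelian {G : Type u} [Group G] [Finite G] {X : Type w} [MulAction G X]
    [FaithfulSMul G X] [Finite X] [IsPretransitive G X] (a : X)
    (hmax : IsCoatom (stabilizer G a)) {N : Subgroup G} (hN : N.Normal)
    (hmin : ∀ M : Subgroup G, M.Normal → M ≤ N → M = ⊥ ∨ M = N)
    (hNt : IsPretransitive N X) {T : Type v} [Group T] [Finite T] [IsSimpleGroup T]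
    (hna : ¬ IsMulCommutative T) {m : ℕ} (e : N ≃* (Fin m → T))
    (p : SubMulAction (stabilizer G a) X) (hp : ∀ x, x ∈ p ↔ x ≠ a) :
    3 * cl N ≤ 3 * cl (((QuotientGroup.mk' N).comp (stabilizer G a).subtype).ker) +
      4 * orbs (stabilizer G a) ↥p := by
  have hclN : cl N ≤ m := (cl_eq_of_equiv e).trans_le (cl_pi_le m)
  set H : Subgroup (Fin m → T) := ((stabilizer G a).subgroupOf N).map e.toMonoidHom with hH
  have hmemH : ∀ x : Fin m → T, x ∈ H ↔ ((e.symm x : N) : G) • a = a := by
    intro x
    constructor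
    · rintro ⟨y, hy, rfl⟩
      simpa [mem_stabilizer_iff] using (Subgroup.mem_subgroupOf.mp hy)
    · exact fun hx => ⟨e.symm x, Subgroup.mem_subgroupOf.mpr hx, by simp⟩
  -- conjugation by the point stabilizer
  let conjAut : G → MulAut (Fin m → T) := fun g =>
    e.symm.trans ((MulAut.conjNormal g).trans e)
  have hconjAut : ∀ (g : G) (x : Fin m → T),
      ((e.symm (conjAut g x) : N) : G) = g * (e.symm x : N) * g⁻¹ := by
    intro g x; simp [conjAut]
  set Γ : Set (MulAut (Fin m → T)) := conjAut '' ((stabilizer G a) : Set G) with hΓ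
  have hinvmap : ∀ (K : Subgroup (Fin m → T)) g, g ∈ (stabilizer G a) → K.map (conjAut g).toMonoidHom = K →
      ∀ x ∈ K, conjAut g x ∈ K := fun K g _ h x hx => h.le ⟨x, hx, rfl⟩
  have hHinv : ∀ ψ ∈ Γ, H.map ψ.toMonoidHom = H := by
    rintro _ ⟨g, hg, rfl⟩
    refine Subgroup.eq_of_le_of_card_ge ?_ (le_of_eq
      (Nat.card_congr (Subgroup.equivMapOfInjective _ _ (conjAut g).injective).toEquiv))
    rintro _ ⟨x, hx, rfl⟩
    show conjAut g x ∈ H
    rw [hmemH, hconjAut, mul_smul, mul_smul, (mem_stabilizer_iff.mp (inv_mem hg) : g⁻¹ • a = a),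
      (hmemH x).mp hx]
    exact hg
  have hup : ∀ K : Subgroup (Fin m → T), ∀ x : G,
      x ∈ ((K.comap e.toMonoidHom).map N.subtype) ↔ ∃ hx : x ∈ N, e ⟨x, hx⟩ ∈ K := by
    intro K x
    constructor
    · rintro ⟨y, hy, rfl⟩; exact ⟨y.2, hy⟩
    · rintro ⟨hx, h⟩; exact ⟨⟨x, hx⟩, h, rfl⟩
  have hconj : ∀ K : Subgroup (Fin m → T), (∀ ψ ∈ Γ, K.map ψ.toMonoidHom = K) → ∀ g ∈ (stabilizer G a),
      ∀ x ∈ (K.comap e.toMonoidHom).map N.subtype,
        g * x * g⁻¹ ∈ (K.comap e.toMonoidHom).map N.subtype := by
    intro K hK g hg x hx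
    obtain ⟨hxN, hxK⟩ := (hup K x).mp hx
    refine (hup K _).mpr ⟨hN.conj_mem x hxN g, ?_⟩
    have h' := hinvmap K g hg (hK _ ⟨g, hg, rfl⟩) _ hxK
    convert h' using 1
    refine e.symm.injective (Subtype.ext ?_)
    rw [hconjAut]
    simp
  have hdec : ∀ g : G, ∃ n : N, ∃ s ∈ (stabilizer G a), g = n * s := by
    intro g
    obtain ⟨n, hn⟩ := exists_smul_eq N a (g • a)
    refine ⟨n, (n : G)⁻¹ * g, ?_, by group⟩
    rw [mem_stabilizer_iff, mul_smul, inv_smul_eq_iff]
    exact hn.symm
  obtain ⟨t, ht⟩ := exists_wt_bound hna Γ H hHinv (fun M hM hMinv => by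
    set M' := (M.comap e.toMonoidHom).map N.subtype with hM'
    have hM'n : M'.Normal := by
      constructor
      intro x hx g
      obtain ⟨n, s, hs, rfl⟩ := hdec g
      have h1 := hconj M hMinv s hs x hx
      obtain ⟨h2, h3⟩ := (hup M _).mp h1
      rw [show (n : G) * s * x * ((n : G) * s)⁻¹ = n * (s * x * s⁻¹) * (n : G)⁻¹ by group]
      refine (hup M _).mpr ⟨N.mul_mem (N.mul_mem n.2 h2) (N.inv_mem n.2), ?_⟩
      have h4 := hM.conj_mem _ h3 (e n)
      rw [← map_inv, ← map_mul, ← map_mul] at h4
      exact h4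
    rcases hmin M' hM'n (fun x hx => ((hup M x).mp hx).1) with h | h
    · left
      refine eq_bot_iff.mpr fun x hx => ?_
      have h1 : ((e.symm x : N) : G) ∈ M' := (hup M _).mpr ⟨(e.symm x).2, by simpa using hx⟩
      rw [h, Subgroup.mem_bot] at h1
      rw [Subgroup.mem_bot, ← e.apply_symm_apply x, show e.symm x = 1 from Subtype.ext h1,
        map_one]
    · right
      refine eq_top_iff.mpr fun x _ => ?_
      obtain ⟨_, h2⟩ := (hup M _).mp (h.ge (e.symm x).2)
      simpa using h2) (fun R hHR hRinv => by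
    set R' := (R.comap e.toMonoidHom).map N.subtype with hR'
    have hle : (stabilizer G a) ≤ Subgroup.normalizer (R' : Set G) :=
      Subgroup.le_normalizer_iff.mpr fun s hs x hx => hconj R hRinv s hs x hx
    rcases eq_or_lt_of_le (le_sup_left : (stabilizer G a) ≤ (stabilizer G a) ⊔ R') with h | h
    · left
      refine le_antisymm (fun x hx => ?_) hHR
      have h1 : ((e.symm x : N) : G) ∈ (stabilizer G a) :=
        h.ge (Subgroup.mem_sup_right ((hup R _).mpr ⟨(e.symm x).2, by simpa using hx⟩))
      exact (hmemH x).mpr h1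
    · right
      refine eq_top_iff.mpr fun x _ => ?_
      have h1 : ((e.symm x : N) : G) ∈ (((stabilizer G a) ⊔ R' : Subgroup G) : Set G) := by
        rw [hmax.2 _ h]; trivial
      rw [Subgroup.coe_mul_of_left_le_normalizer_right (stabilizer G a) R' hle] at h1
      obtain ⟨s, hs, r, hr, hsr⟩ := Set.mem_mul.mp h1
      obtain ⟨hrN, hrR⟩ := (hup R r).mp hr
      have hsN : s ∈ N := by
        have : s = (e.symm x : N) * r⁻¹ := by rw [← hsr]; group
        rw [this]; exact N.mul_mem (e.symm x).2 (N.inv_mem hrN)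
      have hsR : e ⟨s, hsN⟩ ∈ R := hHR ((hmemH _).mpr (by simpa [mem_stabilizer_iff] using hs))
      have hx' : x = e ⟨s, hsN⟩ * e ⟨r, hrN⟩ := by
        rw [← map_mul]
        exact e.symm.injective (Subtype.ext (by simp [hsr]))
      rw [hx']
      exact mul_mem hsR hrR)
  have hclH : cl H ≤ cl (((QuotientGroup.mk' N).comp (stabilizer G a).subtype).ker) := by
    have hk : ∀ k : ((QuotientGroup.mk' N).comp (stabilizer G a).subtype).ker, ((k : (stabilizer G a)) : G) ∈ N := fun k =>
      (QuotientGroup.eq_one_iff _).mp k.2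
    let f : ((QuotientGroup.mk' N).comp (stabilizer G a).subtype).ker →* H :=
      { toFun := fun k => ⟨e ⟨_, hk k⟩, (hmemH _).mpr
          (by rw [e.symm_apply_apply]; exact (k : (stabilizer G a)).2)⟩
        map_one' := Subtype.ext (map_one e)
        map_mul' := fun k l => Subtype.ext (map_mul e ⟨_, hk k⟩ ⟨_, hk l⟩) }
    refine cl_le_of_surjective f fun h => ?_
    refine ⟨⟨⟨(e.symm h.1 : N), (hmemH _).mp h.2⟩, ?_⟩, Subtype.ext ?_⟩
    · exact (QuotientGroup.eq_one_iff _).mpr (e.symm h.1).2
    · show e ⟨((e.symm h.1 : N) : G), _⟩ = h.1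
      simp
  -- the least weight of an element moving `a` to a given point
  have hex : ∀ x : X, ∃ k : ℕ, ∃ u : Fin m → T, ((e.symm u : N) : G) • a = x ∧ wt u = k := by
    intro x
    obtain ⟨n, hn⟩ := exists_smul_eq N a x
    exact ⟨_, e n, by rw [e.symm_apply_apply]; exact hn, rfl⟩
  set sv : X → ℕ := fun x => Nat.find (hex x) with hsv
  have hsv_le : ∀ u : Fin m → T, sv (((e.symm u : N) : G) • a) ≤ wt u :=
    fun u => Nat.find_le ⟨u, rfl, rfl⟩
  have hsva : sv a = 0 := by
    refine Nat.le_zero.mp ?_
    have := hsv_le 1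
    rw [map_one, Subgroup.coe_one, one_smul] at this
    simpa [wt] using this
  have hsvinv : ∀ g ∈ (stabilizer G a), ∀ x, sv (g • x) ≤ sv x := by
    intro g hg x
    obtain ⟨u, hu, hw⟩ := Nat.find_spec (hex x)
    refine le_trans (le_of_eq ?_) ((hsv_le (conjAut g u)).trans (le_of_eq ((wt_map hna (conjAut g) u).trans hw)))
    congr 1
    rw [hconjAut, mul_smul, mul_smul, (mem_stabilizer_iff.mp (inv_mem hg) : g⁻¹ • a = a), hu]
  have hdown : ∀ (k : ℕ) (x : X), sv x = k + 1 → ∃ y, sv y = k := by
    intro k x hx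
    obtain ⟨u, hu, hw⟩ := Nat.find_spec (hex x)
    have hw' : wt u = k + 1 := hw.trans hx
    obtain ⟨i, hi⟩ : ∃ i, u i ≠ 1 := by
      by_contra hc
      push Not at hc
      simp [wt, hc] at hw'
    set u' : Fin m → T := Function.update u i 1 with hu'
    have hwu' : wt u' = k := by
      have : Finset.univ.filter (fun j => u' j ≠ 1) =
          (Finset.univ.filter fun j => u j ≠ 1).erase i := by
        ext j
        rcases eq_or_ne j i with rfl | hji
        · simp [hu']
        · simp [hu', hji]
      rw [wt, this, Finset.card_erase_of_mem (by simpa using hi)]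
      rw [wt] at hw'
      omega
    refine ⟨((e.symm u' : N) : G) • a, le_antisymm ((hsv_le u').trans hwu'.le) ?_⟩
    obtain ⟨v, hv, hwv⟩ := Nat.find_spec (hex (((e.symm u' : N) : G) • a))
    have h1 : u = Pi.mulSingle i (u i) * u' := by
      funext j
      rcases eq_or_ne j i with rfl | hji
      · simp [hu']
      · simp [hu', hji]
    have h2 : ((e.symm (Pi.mulSingle i (u i) * v) : N) : G) • a = x := by
      rw [map_mul, Subgroup.coe_mul, mul_smul, hv, ← mul_smul, ← Subgroup.coe_mul, ← map_mul,
        ← h1, hu]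
    have h3 := hsv_le (Pi.mulSingle i (u i) * v)
    rw [h2, hx] at h3
    have h4 : wt (Pi.mulSingle i (u i) * v) ≤ wt v + 1 := by
      refine le_trans (Finset.card_le_card (fun j hj => ?_))
        (Finset.card_insert_le i (Finset.univ.filter fun j => v j ≠ 1))
      simp only [Finset.mem_filter, Finset.mem_univ, true_and] at hj
      rcases eq_or_ne j i with rfl | hji
      · exact Finset.mem_insert_self _ _
      · refine Finset.mem_insert_of_mem ?_
        simpa [hji] using hj
    have : sv (((e.symm u' : N) : G) • a) = wt v := hwv.symm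
    omega
  obtain ⟨x₀, hx₀⟩ : ∃ x, x = ((e.symm t : N) : G) • a := ⟨_, rfl⟩
  have hM : 3 * m ≤ 3 * cl H + 4 * sv x₀ := by
    obtain ⟨u, hu, hw⟩ := Nat.find_spec (hex x₀)
    have hh : t⁻¹ * u ∈ H := by
      rw [hmemH, map_mul, map_inv, Subgroup.coe_mul, Subgroup.coe_inv, mul_smul, hu, hx₀,
        inv_smul_smul]
    have := ht _ hh
    rw [mul_inv_cancel_left, hw] at this
    exact this
  -- every smaller positive value is attained away from `a`
  have hall : ∀ j, ∀ x, sv x = j → ∀ k, k ≤ j → ∃ y, sv y = k := by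
    intro j
    induction j with
    | zero => intro x hx k hk; exact ⟨x, by omega⟩
    | succ j ihj =>
      intro x hx k hk
      rcases Nat.eq_or_lt_of_le hk with rfl | hlt
      · exact ⟨x, hx⟩
      · obtain ⟨y, hy⟩ := hdown j x hx
        exact ihj y hy k (by omega)
  have horb : sv x₀ ≤ orbs (stabilizer G a) ↥p := by
    let F : Quotient (orbitRel (stabilizer G a) ↥p) → ℕ :=
      Quotient.lift (fun y => sv y.1) fun y z hyz => by
        obtain ⟨g, rfl⟩ := hyz
        refine le_antisymm (hsvinv g.1 g.2 z.1) ?_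
        have h' := hsvinv (g.1⁻¹) (inv_mem g.2) ((g : G) • (z : X))
        rwa [inv_smul_smul] at h'
    haveI : Fintype (Quotient (orbitRel (stabilizer G a) ↥p)) := Fintype.ofFinite _
    have hsub : Finset.Icc 1 (sv x₀) ⊆ Finset.univ.image F := by
      intro k hk
      rw [Finset.mem_Icc] at hk
      obtain ⟨y, hy⟩ := hall _ x₀ rfl k hk.2
      have hya : y ≠ a := fun h => by rw [h, hsva] at hy; omega
      exact Finset.mem_image.mpr ⟨Quotient.mk _ ⟨y, (hp y).mpr hya⟩, Finset.mem_univ _, hy⟩
    have h' := (Finset.card_le_card hsub).trans Finset.card_image_le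
    rw [Nat.card_Icc, Finset.card_univ, ← Nat.card_eq_fintype_card] at h'
    unfold orbs
    omega
  omega

theorem primitive {n : ℕ} (ih : ∀ k < n, Bound k) {G : Type u} [Group G] [Finite G]
    {X : Type w} [MulAction G X] [FaithfulSMul G X] [Finite X] [IsPretransitive G X]
    [Nontrivial X] (hX : Nat.card X = n) (a : X) (hmax : IsCoatom (stabilizer G a)) :
    3 * cl G + 4 ≤ 4 * n := by
  haveI hpp : IsPreprimitive G X :=
    (MulAction.isCoatom_stabilizer_iff_preprimitive G a).mp hmax
  haveI : Nontrivial G := by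
    by_contra h
    rw [not_nontrivial_iff_subsingleton] at h
    obtain ⟨x, y, hxy⟩ := exists_pair_ne X
    obtain ⟨g, hg⟩ := exists_smul_eq G x y
    rw [Subsingleton.elim g 1, one_smul] at hg
    exact hxy hg
  obtain ⟨N, -, hN, hN1, hmin⟩ := PrimStruct.exists_minimal_normal
    (top_ne_bot (α := Subgroup G)) (inferInstance : (⊤ : Subgroup G).Normal)
  haveI := hN
  haveI hNt : IsPretransitive N X := PermLib.isPretransitive_of_normal_ne_bot hN1
  set S := stabilizer G a with hS
  set q := (QuotientGroup.mk' N).comp S.subtype with hq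
  have hqs : Function.Surjective q := by
    intro x
    induction x using QuotientGroup.induction_on with
    | _ g =>
      obtain ⟨k, hk⟩ := exists_smul_eq N a (g • a)
      refine ⟨⟨(k : G)⁻¹ * g, ?_⟩, ?_⟩
      · rw [hS, mem_stabilizer_iff, mul_smul, inv_smul_eq_iff]; exact hk.symm
      · show (((k : G)⁻¹ * g : G) : G ⧸ N) = g
        rw [QuotientGroup.mk_mul, (QuotientGroup.eq_one_iff _).mpr (N.inv_mem k.2), one_mul]
  have hq2 := ker_add_cl_le q hqs
  have hG : cl G ≤ cl N + cl (G ⧸ N) := by
    have h := cl_le_ker_add_range (QuotientGroup.mk' N)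
    rw [cl_eq_of_equiv (MulEquiv.subgroupCongr (QuotientGroup.ker_mk' N))] at h
    refine h.trans (Nat.add_le_add_left ?_ _)
    rw [MonoidHom.range_eq_top.mpr (QuotientGroup.mk'_surjective N),
      cl_eq_of_equiv Subgroup.topEquiv]
  let p : SubMulAction S X :=
    { carrier := {x | x ≠ a}
      smul_mem' := fun g x hx he => hx (MulAction.injective (g : G)
        (he.trans (mem_stabilizer_iff.mp g.2).symm)) }
  haveI : FaithfulSMul S ↥p := ⟨fun {k l} hkl => Subtype.ext (eq_of_smul_eq_smul fun x => by
    by_cases hx : x = a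
    · subst hx; exact (mem_stabilizer_iff.mp k.2).trans (mem_stabilizer_iff.mp l.2).symm
    · exact congrArg Subtype.val (hkl (⟨x, hx⟩ : ↥p)))⟩
  have hpc : Nat.card ↥p = n - 1 := by
    rw [← hX]
    show Nat.card ↥({a}ᶜ : Set X) = _
    rw [Nat.card_coe_set_eq, Set.ncard_compl, Set.ncard_singleton]
  have hn2 : 2 ≤ n := hX ▸ Finite.one_lt_card
  by_cases hab : IsMulCommutative N
  · obtain ⟨r, hr, hel, -, hreg⟩ :=
      PrimStruct.affine_data (Ω := X) hN hN1 hmin hab
    haveI := Fact.mk hr
    obtain ⟨d, hd⟩ := (IsPGroup.iff_card (p := r) (G := N)).mp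
      (fun x => ⟨1, Subtype.ext (by simpa using hel.2 x x.2)⟩)
    have hNn : Nat.card N = n := by
      rw [← hX, ← index_stabilizer_of_transitive N a, hreg a, Subgroup.index_bot]
    have hd1 : 1 ≤ d := by
      rcases Nat.eq_zero_or_pos d with rfl | h
      · rw [pow_zero, hNn] at hd; omega
      · exact h
    have hclN : cl N ≤ d := by
      refine cl_le_cardFactors.trans (le_of_eq ?_)
      rw [hd, ArithmeticFunction.cardFactors_apply_prime_pow hr]
    obtain ⟨s, hs1, hs2, hs3⟩ := exists_generators N
    rw [hd, ArithmeticFunction.cardFactors_apply_prime_pow hr] at hs3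
    have hle : Nat.card S ≤ (n - 1) ^ d := by
      have hne : ∀ i : ↥(s : Set N), ((i : N) : G) • a ∈ p := fun i he => hs1 (by
        have h1 : (i : N) ∈ stabilizer N a := he
        rw [hreg a, Subgroup.mem_bot] at h1
        exact h1 ▸ i.2)
      let F : S → (↥(s : Set N) → ↥p) := fun g i => g • (⟨_, hne i⟩ : ↥p)
      have hF : Function.Injective F := by
        intro g g' hgg
        have h1 : ∀ u : N, (g : G) • ((u : G) • a) = (g' : G) • ((u : G) • a) := by
          intro u
          have hu : u ∈ Subgroup.closure (s : Set N) := hs2 ▸ trivial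
          set z : G := (g' : G)⁻¹ * g with hz
          have hzS : z • a = a := by
            rw [hz, mul_smul, mem_stabilizer_iff.mp g.2, inv_smul_eq_iff,
              mem_stabilizer_iff.mp g'.2]
          have hcomm : ∀ v : N, z • ((v : G) • a) = (v : G) • a → z * v = v * z := by
            intro v hv
            have hm : z * v * z⁻¹ ∈ N := hN.conj_mem _ v.2 z
            have h3 : ((v : G)⁻¹ * (z * v * z⁻¹)) • a = a := by
              rw [mul_smul, mul_smul, mul_smul, inv_smul_eq_iff.mpr hzS.symm, hv, inv_smul_smul]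
            have h4 : (⟨_, N.mul_mem (N.inv_mem v.2) hm⟩ : N) ∈ stabilizer N a := h3
            rw [hreg a, Subgroup.mem_bot] at h4
            have h5 : z * v * z⁻¹ = v := (inv_mul_eq_one.mp (congrArg Subtype.val h4)).symm
            calc z * v = z * v * z⁻¹ * z := by group
              _ = v * z := by rw [h5]
          have h2 : z * u = u * z := by
            induction hu using Subgroup.closure_induction with
            | mem v hv =>
              refine hcomm v ?_
              have h6 : (g : G) • ((v : G) • a) = (g' : G) • ((v : G) • a) :=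
                congrArg Subtype.val (congrFun hgg ⟨v, hv⟩)
              rw [hz, mul_smul, h6, inv_smul_smul]
            | one => simp
            | mul x y _ _ hx hy =>
              rw [Subgroup.coe_mul, ← mul_assoc, hx, mul_assoc, hy, mul_assoc]
            | inv x _ hx =>
              rw [Subgroup.coe_inv]
              exact (Commute.inv_right (hx : Commute z (x : G)))
          have h7 : z • ((u : G) • a) = (u : G) • a := by rw [← mul_smul, h2, mul_smul, hzS]
          rwa [hz, mul_smul, inv_smul_eq_iff] at h7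
        refine Subtype.ext (eq_of_smul_eq_smul fun x : X => ?_)
        obtain ⟨u, rfl⟩ := exists_smul_eq N a x
        exact h1 u
      refine (Nat.card_le_card_of_injective F hF).trans (le_of_eq_of_le ?_
        (Nat.pow_le_pow_right (by omega) hs3))
      rw [Nat.card_fun, hpc, Nat.card_coe_set_eq, Set.ncard_coe_finset]
    have hdvd : Nat.card S ∣ (n - 1).factorial := by
      rw [← hpc]
      have := Subgroup.card_dvd_of_injective (MulAction.toPermHom S ↥p) MulAction.toPerm_injective
      rwa [Nat.card_perm] at this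
    have := affine_ineq hr (hNn.symm.trans hd) hd1 (cl_le_cardFactors (G := S))
      Nat.card_pos.ne' hdvd hle
    omega
  · obtain ⟨T, iT, iTf, m, hT, -, ⟨e⟩⟩ := PermB.exists_mulEquiv_pi_simple N hN1 hmin
    have hna : ¬ IsMulCommutative T := fun h => hab ⟨⟨fun x y => e.injective (by
      rw [map_mul, map_mul]; funext i; exact h.is_comm.comm _ _)⟩⟩
    have hkey := key_nonabelian a hmax hN hmin hNt hna e p fun x => Iff.rfl
    have := (ih (n - 1) (by omega)).apply (G := S) (X := ↥p) hpc
    change 3 * cl N ≤ 3 * cl q.ker + 4 * orbs S ↥p at hkey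
    omega

theorem bound_all : ∀ n, Bound n := by
  intro n
  induction n using Nat.strong_induction_on with
  | _ n ih =>
    intro G
    rcases Nat.eq_zero_or_pos n with rfl | hn
    · haveI : Subsingleton G := ⟨fun x y => eq_of_smul_eq_smul fun i : Fin 0 => i.elim0⟩
      have h1 : cl G = 0 := Nat.le_zero.mp (cl_le_cardFactors.trans (by rw [Nat.card_of_subsingleton (1 : G)]; simp))
      have h2 : orbs G (Fin 0) = 0 := Nat.card_of_isEmpty
      omega
    · set a : Fin n := ⟨0, hn⟩
      have hX : Nat.card (Fin n) = n := Nat.card_fin n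
      by_cases htr : orbit G a = Set.univ
      · haveI : IsPretransitive G (Fin n) := ⟨fun x y => by
          obtain ⟨g, hg⟩ : x ∈ orbit G a := htr ▸ trivial
          obtain ⟨k, hk⟩ : y ∈ orbit G a := htr ▸ trivial
          exact ⟨k * g⁻¹, by rw [← hg, ← hk, smul_smul, inv_mul_cancel_right]⟩⟩
        have ho : orbs G (Fin n) ≤ 1 := by
          haveI : Subsingleton (Quotient (orbitRel G (Fin n))) := ⟨fun x y => by
            induction x using Quotient.ind
            induction y using Quotient.ind
            rename_i x y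
            exact Quotient.sound (exists_smul_eq G y x)⟩
          exact Finite.card_le_one_iff_subsingleton.mpr inferInstance
        rcases Nat.eq_or_lt_of_le hn with h1 | h1
        · haveI : Subsingleton (Fin n) := ⟨fun x y => Fin.ext (by omega)⟩
          haveI : Subsingleton G :=
            ⟨fun x y => eq_of_smul_eq_smul fun i : Fin n => Subsingleton.elim _ _⟩
          have h2 : cl G = 0 := Nat.le_zero.mp
            (cl_le_cardFactors.trans (by rw [Nat.card_of_subsingleton (1 : G)]; simp))
          omega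
        · haveI : Nontrivial (Fin n) := Fin.nontrivial_iff_two_le.mpr h1
          by_cases hc : IsCoatom (stabilizer G a)
          · have := primitive ih hX a hc
            omega
          · have hne : stabilizer G a ≠ ⊤ := fun h => by
              obtain ⟨x, hx⟩ := exists_ne a
              obtain ⟨g, hg⟩ := exists_smul_eq G a x
              exact hx (hg ▸ (h ▸ trivial : g ∈ stabilizer G a))
            simp only [IsCoatom, not_and, not_forall] at hc
            obtain ⟨H, hH, hHt⟩ := hc hne
            have := imprimitive ih hX a H hH hHt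
            omega
      · exact intransitive ih hX a htr

end Cfsg.Agent.CompLen
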